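import Cfsg.Agent.Hall.Schmidt
import Cfsg.Agent.Hall.Fitting
import Cfsg.Agent.PCore.Basic
import Cfsg.Agent.Hall.SylowNormalizersComplement
import Cfsg.Agent.Components.Cores
import Mathlib.Tactic

/-!
Elementary facts on factorized groups and on nilpotent subgroups.
-/

set_option autoImplicit false
set_option linter.style.haveILetI false

namespace CfsgLib.KegelWielandt

open scoped Pointwise

variable {G : Type*} [Group G]

/-- `G` is the product of the sets `A` and `B`. -/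
def Factor (A B : Subgroup G) : Prop := ∀ g : G, ∃ a ∈ A, ∃ b ∈ B, g = a * b

/-- The subgroup `H` is the product of its intersections with `A` and `B`. -/
def FactorizedIn (A B H : Subgroup G) : Prop := ∀ h ∈ H, ∃ a ∈ A ⊓ H, ∃ b ∈ B ⊓ H, h = a * b

theorem Factor.symm {A B : Subgroup G} (h : Factor A B) : Factor B A := fun g => by
  obtain ⟨a, ha, b, hb, e⟩ := h g⁻¹
  exact ⟨b⁻¹, inv_mem hb, a⁻¹, inv_mem ha, by rw [← inv_inj, e, mul_inv_rev, inv_inv, inv_inv]⟩

theorem FactorizedIn.symm {A B H : Subgroup G} (h : FactorizedIn A B H) : FactorizedIn B A H := fun g hg => by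
  obtain ⟨a, ha, b, hb, e⟩ := h g⁻¹ (H.inv_mem hg)
  exact ⟨b⁻¹, ⟨B.inv_mem hb.1, H.inv_mem hb.2⟩, a⁻¹, ⟨A.inv_mem ha.1, H.inv_mem ha.2⟩, by rw [← inv_inj, e, mul_inv_rev, inv_inv, inv_inv]⟩

theorem factorizedIn_of_le {A B H : Subgroup G} (h : Factor A B) (hAH : A ≤ H) : FactorizedIn A B H := fun g hg => by
  obtain ⟨a, ha, b, hb, e⟩ := h g
  refine ⟨a, ⟨ha, hAH ha⟩, b, ⟨hb, ?_⟩, e⟩
  have : b = a⁻¹ * g := by rw [e]; group
  rw [this]
  exact H.mul_mem (H.inv_mem (hAH ha)) hg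

theorem conj_mem_of_mem_normalizer {H : Subgroup G} {g x : G} (hg : g ∈ Subgroup.normalizer (H : Set G))
    (hx : x ∈ H) : g * x * g⁻¹ ∈ H := (Subgroup.mem_normalizer_iff.1 hg x).1 hx

theorem conj_mem_of_mem_normalizer' {H : Subgroup G} {g x : G} (hg : g ∈ Subgroup.normalizer (H : Set G))
    (hx : x ∈ H) : g⁻¹ * x * g ∈ H := by simpa using conj_mem_of_mem_normalizer (inv_mem hg) hx

theorem map_conj_eq_of_le [Finite G] {H : Subgroup G} {g : G} (h : H.map (MulAut.conj g).toMonoidHom ≤ H) :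
    g ∈ Subgroup.normalizer (H : Set G) :=
  Subgroup.mem_normalizer_fintype fun x hx => h ⟨x, hx, rfl⟩

/-- A subgroup containing every subgroup of prime power order of `H` contains `H`. -/
theorem le_of_forall_isPGroup [Finite G] {H X : Subgroup G}
    (h : ∀ p : ℕ, p.Prime → ∀ P : Subgroup G, P ≤ H → IsPGroup p P → P ≤ X) : H ≤ X := by
  refine inf_eq_left.1 (Subgroup.eq_of_le_of_card_ge inf_le_left (Nat.le_of_dvd Nat.card_pos ?_))
  refine Nat.dvd_iff_prime_pow_dvd_dvd _ _ |>.2 fun p k hp hk => ?_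
  haveI := Fact.mk hp
  obtain ⟨P, hP⟩ := Sylow.exists_subgroup_card_pow_prime p hk
  have h1 : P.map H.subtype ≤ H ⊓ X :=
    le_inf (Subgroup.map_subtype_le _) (h p hp _ (Subgroup.map_subtype_le _) ((IsPGroup.of_card hP).map _))
  rw [← hP, ← Subgroup.card_map_of_injective H.subtype_injective]
  exact Subgroup.card_dvd_of_le h1

/-- A `p`-element of the Fitting subgroup lies in `O_p`. -/
theorem mem_pCore_of_mem_fitting {K : Type*} [Group K] [Finite K] {p : ℕ} [hp : Fact p.Prime] {x : K}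
    (hx : x ∈ Cfsg.fittingSubgroup K) (hxp : IsPGroup p (Subgroup.zpowers x)) : x ∈ Cfsg.pCore p K := by
  haveI := CfsgLib.Components.fittingSubgroup_isNilpotent (G := K)
  set F := Cfsg.fittingSubgroup K
  haveI : F.Normal := CfsgLib.Components.fittingSubgroup_normal
  obtain ⟨P, hP⟩ := (hxp.comap_subtype : IsPGroup p ((Subgroup.zpowers x).subgroupOf F)).exists_le_sylow
  haveI : (P : Subgroup F).Normal := CfsgLib.Hall.NormComplement.sylow_normal_of_nilpotent ‹_› p P
  haveI := Sylow.characteristic_of_normal P inferInstance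
  exact CfsgLib.PCore.le_pCore (N := (P : Subgroup F).map F.subtype) inferInstance (P.2.map _)
    ⟨⟨x, hx⟩, hP (Subgroup.mem_zpowers x), rfl⟩

/-- The largest subgroup of `S` normalized by `Y`. -/
def maxInv (Y S : Subgroup G) : Subgroup G :=
  sSup {X | X ≤ S ∧ Y ≤ Subgroup.normalizer (X : Set G)}

theorem maxInv_le (Y S : Subgroup G) : maxInv Y S ≤ S := sSup_le fun _ h => h.1

theorem le_maxInv {Y S X : Subgroup G} (h1 : X ≤ S) (h2 : Y ≤ Subgroup.normalizer (X : Set G)) : X ≤ maxInv Y S :=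
  le_sSup ⟨h1, h2⟩

theorem le_normalizer_maxInv [Finite G] (Y S : Subgroup G) : Y ≤ Subgroup.normalizer (maxInv Y S : Set G) := by
  intro y hy
  refine map_conj_eq_of_le ?_
  rw [Subgroup.map_le_iff_le_comap]
  refine sSup_le fun X hX x hx => ?_
  exact le_maxInv hX.1 hX.2 (conj_mem_of_mem_normalizer (hX.2 hy) hx)

/-- The `p`-part of a nilpotent subgroup. -/
def pPart (p : ℕ) (A : Subgroup G) : Subgroup G := (Cfsg.pCore p A).map A.subtype

theorem pPart_le (p : ℕ) (A : Subgroup G) : pPart p A ≤ A := Subgroup.map_subtype_le _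

theorem isPGroup_pPart [Finite G] (p : ℕ) (A : Subgroup G) : IsPGroup p (pPart p A) :=
  (CfsgLib.PCore.isPGroup_pCore p A).map _

theorem le_pPart [Finite G] {p : ℕ} [hp : Fact p.Prime] {A : Subgroup G} (hA : Group.IsNilpotent A)
    {P : Subgroup G} (hP : IsPGroup p P) (hPA : P ≤ A) : P ≤ pPart p A := by
  intro x hx
  obtain ⟨Q, hQ⟩ := (hP.comap_subtype : IsPGroup p (P.subgroupOf A)).exists_le_sylow
  have hn : (Q : Subgroup A).Normal := CfsgLib.Hall.NormComplement.sylow_normal_of_nilpotent hA p Q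
  exact ⟨⟨x, hPA hx⟩, CfsgLib.PCore.le_pCore hn Q.2 (hQ hx), rfl⟩

theorem le_normalizer_pPart [Finite G] (p : ℕ) (A : Subgroup G) :
    A ≤ Subgroup.normalizer (pPart p A : Set G) := by
  intro a ha
  refine Subgroup.mem_normalizer_fintype ?_
  rintro _ ⟨y, hy, rfl⟩
  exact ⟨⟨a, ha⟩ * y * ⟨a, ha⟩⁻¹, (Cfsg.pCore_normal p A).conj_mem y hy _, rfl⟩

theorem exists_sylow_pPart [Finite G] {p : ℕ} [hp : Fact p.Prime] {A : Subgroup G} (hA : Group.IsNilpotent A) :
    Nat.card (pPart p A) = p ^ (Nat.card A).factorization p := by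
  obtain ⟨Q⟩ : Nonempty (Sylow p A) := inferInstance
  have hn : (Q : Subgroup A).Normal := CfsgLib.Hall.NormComplement.sylow_normal_of_nilpotent hA p Q
  have e : Cfsg.pCore p A = (Q : Subgroup A) :=
    le_antisymm (CfsgLib.PCore.pCore_le_sylow Q) (CfsgLib.PCore.le_pCore hn Q.2)
  rw [pPart, Subgroup.card_map_of_injective A.subtype_injective, e, Sylow.card_eq_multiplicity]

theorem pPart_ne_bot [Finite G] {p : ℕ} [hp : Fact p.Prime] {A : Subgroup G} (hA : Group.IsNilpotent A)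
    (h : p ∣ Nat.card A) : pPart p A ≠ ⊥ := by
  intro h0
  have h1 := exists_sylow_pPart (p := p) hA
  rw [h0, Subgroup.card_bot] at h1
  exact (Nat.one_lt_pow (hp.out.factorization_pos_of_dvd Nat.card_pos.ne' h).ne' hp.out.one_lt).ne h1

end CfsgLib.KegelWielandt
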